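import Cfsg.Agent.Chev.G2Odd.Basic
import Mathlib.NumberTheory.LegendreSymbol.QuadraticChar.Basic

/-!
The centralizer of the central involution of the two root `SL₂` in `G₂(q)`.
-/

set_option autoImplicit false

universe u

namespace Cfsg.Agent.Chev.G2Odd

open Cfsg.Lie
open scoped Matrix MatrixGroups

variable {F : Type u} [Field F]

/-- Conjugation of a word in root elements by an element of `H`. -/
theorem conj_wu {h : GL chevG2.Idx F} {χ : ℕ → F}
    (hc : ∀ r < chevG2.nroots, ∀ t, h * (cG.{u}).xu r t * h⁻¹ = (cG.{u}).xu r (χ r * t)) (L : List (ℕ × F))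
    (hL : ∀ p ∈ L, p.1 < chevG2.nroots) :
    h * (cG.{u}).wu L * h⁻¹ = (cG.{u}).wu (L.map fun p => (p.1, χ p.1 * p.2)) := by
  induction L with
  | nil => simp [Cert.wu]
  | cons p L ih =>
    rw [List.map_cons, (cG.{u}).wu_cons, (cG.{u}).wu_cons, ← ih fun q hq => hL q (List.mem_cons_of_mem _ hq),
      ← hc p.1 (hL p List.mem_cons_self)]
    group

theorem tz_conj_xu {r : ℕ} (hr : r < chevG2.nroots) (t : F) :
    tz F * (cG.{u}).xu r t * (tz F)⁻¹ = (cG.{u}).xu r ((-1) ^ pairInt chevG2 7 r * t) := by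
  rw [tz_eq_hu]; exact hu_conj cG.{u} (lt_of 7) hr (neg_ne_zero.mpr one_ne_zero) t

theorem even_of_zpow_eq (h2 : (2 : F) ≠ 0) {m n : ℤ} (h : (-1 : F) ^ m = (-1) ^ n) : Even m ↔ Even n := by
  have hne : (-1 : F) ≠ 1 := fun e => h2 (by linear_combination -e)
  constructor <;> intro he <;> by_contra ho <;>
    rw [Even.neg_one_zpow he, Odd.neg_one_zpow (Int.not_even_iff_odd.mp ho)] at h
  · exact hne h.symm
  · exact hne h

theorem tz_comm_diagonal {d : GL chevG2.Idx F} (hd : d ∈ chevG2.diagonalSubgroup F) :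
    tz F * d = d * tz F := by
  rw [tz_eq_hu]
  exact (cG.{u}).diagonal_comm ((cG.{u}).hu_simple_mem_diagonal (lt_of 7) (neg_ne_zero.mpr one_ne_zero)) hd

/-- An element of `U` fixed by the involution lies in `Y`. -/
theorem pos_fixed_mem (h2 : (2 : F) ≠ 0) {u : GL chevG2.Idx F} (hu : u ∈ chevG2.posUnipotent F)
    (hc : tz F * u * (tz F)⁻¹ = u) : u ∈ ySub F := by
  obtain ⟨t, -, rfl⟩ := (cG.{u}).exists_prodU (cG.{u}).closedSet_pos hu
  rw [Cert.prodU, conj_wu (fun r hr x => tz_conj_xu hr x) _ (fun p hp => by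
    obtain ⟨r, hr, rfl⟩ := List.mem_map.mp hp
    exact (Cert.mem_posRoots.mp hr).1), List.map_map] at hc
  have h := (cG.{u}).prodU_inj (t := fun r => (-1 : F) ^ pairInt chevG2 7 r * t r) (t' := t) hc
  have key : ∀ r, chevG2.IsPosRoot r → t r ≠ 0 → r = 7 ∨ r = 11 := by
    intro r hr hne
    have he : Even (pairInt chevG2 7 r) := by
      refine (even_of_zpow_eq h2 (m := pairInt chevG2 7 r) (n := 0) ?_).mpr (by decide)
      rw [zpow_zero]
      exact mul_right_cancel₀ hne ((h r hr).trans (one_mul _).symm)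
    have hlist : ∀ r < chevG2.nroots, chevG2.IsPosRoot r → Even (pairInt chevG2 7 r) → r = 7 ∨ r = 11 := by
      decide +kernel
    exact hlist r hr.1 hr he
  refine (cG.{u}).span_le (P := fun r => r = 7 ∨ r = 11) (K := ySub F) ?_
    ((cG.{u}).prodU_mem t key)
  rintro r (rfl | rfl) x
  · exact hS.U x ▸ phiS_mem _
  · exact hL.U x ▸ phiL_mem _

/-- `Y` is normalised by `H`. -/
theorem diagonal_normalises :
    chevG2.diagonalSubgroup F ≤ Subgroup.normalizer (ySub F : Set (GL chevG2.Idx F)) := by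
  have key : ∀ d ∈ chevG2.diagonalSubgroup F, ∀ x ∈ ySub F, d * x * d⁻¹ ∈ ySub F := by
    intro d hd x hx
    have le : ySub F ≤ (ySub F).comap (MulAut.conj d).toMonoidHom := by
      conv_lhs => rw [ySub_eq, (cG.{u}).sl2Hom_range (phiS (F := F)) hS.U hS.L,
        (cG.{u}).sl2Hom_range (phiL (F := F)) hL.U hL.L]
      refine sup_le (sup_le ?_ ?_) (sup_le ?_ ?_)
      all_goals intro y hy
      all_goals obtain ⟨t, rfl⟩ := (cG.{u}).mem_rootSubgroup.mp hy
      all_goals rw [Subgroup.mem_comap, MulEquiv.coe_toMonoidHom, MulAut.conj_apply]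
      · obtain ⟨c, -, e⟩ := (cG.{u}).diagonal_conj_xu hd (lt_of 7)
        rw [e, ← hS.U]; exact phiS_mem _
      · obtain ⟨c, -, e⟩ := (cG.{u}).diagonal_conj_xu hd ((cG.{u}).neg_lt 7 (lt_of 7))
        rw [e, ← hS.L]; exact phiS_mem _
      · obtain ⟨c, -, e⟩ := (cG.{u}).diagonal_conj_xu hd (lt_of 11)
        rw [e, ← hL.U]; exact phiL_mem _
      · obtain ⟨c, -, e⟩ := (cG.{u}).diagonal_conj_xu hd ((cG.{u}).neg_lt 11 (lt_of 11))
        rw [e, ← hL.L]; exact phiL_mem _
    exact le hx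
  intro d hd
  rw [Subgroup.mem_normalizer_iff]
  intro x
  refine ⟨key d hd x, fun hx => ?_⟩
  have := key d⁻¹ (inv_mem hd) _ hx
  rwa [inv_inv, show d⁻¹ * (d * x * d⁻¹) * d = x by group] at this

/-- The product of `Y` and `H`. -/
noncomputable def kSub (F : Type u) [Field F] : Subgroup (GL chevG2.Idx F) :=
  ySub F ⊔ chevG2.diagonalSubgroup F

theorem kSub_le_group : kSub F ≤ chevG2.group F := sup_le ySub_le_group (cG.{u}).diagonal_le_group

theorem kSub_comm {x : GL chevG2.Idx F} (hx : x ∈ kSub F) : tz F * x = x * tz F := by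
  obtain ⟨a, ha, d, hd, rfl⟩ := (Cert.mem_sup_of_normalised diagonal_normalises).mp hx
  rw [← mul_assoc, tz_comm ha, mul_assoc, tz_comm_diagonal hd, mul_assoc]

theorem nu11_mem : (cG.{u}).nu 11 (1 : F) ∈ ySub F := by
  rw [← hL.map_W]; exact phiL_mem _

/-- The words for the Klein four group of the Weyl group fixing the two roots up to sign. -/
def klein : List (List ℕ) := [[], [0], [1, 0, 1, 0, 1], [0, 1, 0, 1, 0, 1]]

theorem klein_lt : ∀ K ∈ klein, ∀ i ∈ K, i < chevG2.rank := by decide +kernel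

theorem klein_mem : ∀ K ∈ klein, (cG.{u}).nWordElt F K ∈ kSub F := by
  have hn0 : (cG.{u}).nWordElt F [0] ∈ kSub F := by
    rw [(cG.{u}).nWordElt_cons, simple0, show (cG.{u}).nWordElt F [] = 1 from rfl, mul_one, ← hS.map_W]
    exact Subgroup.mem_sup_left (phiS_mem _)
  have hr : (cG.{u}).nWordElt F [1, 0, 1, 0, 1] ∈ kSub F := by
    have hcj := (cG.{u}).nWordElt_conj_nu (F := F) (L := [1, 0]) (by decide) (lt_of 6)
    have ha : act chevG2 [1, 0] 6 = 11 := by decide +kernel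
    rw [ha] at hcj
    have e : (cG.{u}).nWordElt F [1, 0, 1, 0, 1] =
        ((cG.{u}).nWordElt F [1, 0] * (cG.{u}).nu 6 1 * ((cG.{u}).nWordElt F [1, 0])⁻¹) *
          ((cG.{u}).nu (chevG2.simple 1) 1 * ((cG.{u}).nu 7 1 * (cG.{u}).nu 7 1) * ((cG.{u}).nu (chevG2.simple 1) 1)) := by
      simp only [Cert.nWordElt, List.map_cons, List.map_nil, List.prod_cons, List.prod_nil, simple0, simple1]
      group
    rw [e]
    refine mul_mem (Subgroup.mem_sup_left ?_) (Subgroup.mem_sup_right ?_)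
    · rcases hcj with h | h <;> rw [h]
      · exact nu11_mem
      · exact inv_mem nu11_mem
    · have h1 : (-1 : F) ≠ 0 := neg_ne_zero.mpr one_ne_zero
      have h77 : (cG.{u}).nu 7 (1 : F) * (cG.{u}).nu 7 1 = (cG.{u}).hu 7 (-1) := by
        have := (cG.{u}).nu_simple_mul_self (F := F) (i := 0) (by decide)
        rwa [simple0] at this
      rw [h77, (cG.{u}).nu_simple_conj_hu (i := 1) (by decide) (lt_of 7) h1, mul_assoc,
        (cG.{u}).nu_simple_mul_self (i := 1) (by decide)]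
      exact mul_mem ((cG.{u}).hu_simple_mem_diagonal ((cG.{u}).refl_lt 1 (by decide) 7 (lt_of 7)) h1)
        ((cG.{u}).hu_simple_mem_diagonal ((cG.{u}).simple_lt 1 (by decide)) h1)
  intro K hK
  simp only [klein, List.mem_cons, List.not_mem_nil, or_false] at hK
  rcases hK with rfl | rfl | rfl | rfl
  · exact one_mem _
  · exact hn0
  · exact hr
  · rw [(cG.{u}).nWordElt_cons, simple0, ← hS.map_W]
    exact mul_mem (Subgroup.mem_sup_left (phiS_mem _)) hr

set_option synthInstance.maxSize 2000 in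
theorem weyl_table : ∀ x < 12, ∀ y < 12, ∀ z < 12,
    Even (pairInt chevG2 7 x) → ¬ Even (pairInt chevG2 7 y) → Even (pairInt chevG2 7 z) →
    (∀ j < 2, (cG.{u}).coef z j = 3 * (cG.{u}).coef x j + 2 * (cG.{u}).coef y j) →
    ∃ K ∈ klein, act chevG2 K x = 7 ∧ act chevG2 K y = 6 := by
  decide +kernel

/-- A monomial element commuting with the involution lies in `Y H`. -/
theorem monomial_fixed_mem (h2 : (2 : F) ≠ 0) {n : GL chevG2.Idx F} (hn : n ∈ chevG2.monomialSubgroup F)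
    (hc : tz F * n = n * tz F) : n ∈ kSub F := by
  obtain ⟨L, ⟨h, hh, e⟩, hconj⟩ := (cG.{u}).monomial_conj_xu coxG2 hn
  set L' := L.map Fin.val with hL'
  have hlt : ∀ i ∈ L', i < chevG2.rank := (cG.{u}).fin_word_lt L
  have par : ∀ r < chevG2.nroots, (Even (pairInt chevG2 7 (act chevG2 L' r)) ↔ Even (pairInt chevG2 7 r)) := by
    intro r hr
    obtain ⟨c, hc0, ec⟩ := hconj r hr
    refine even_of_zpow_eq h2 ?_
    have h1 : n * (tz F * (cG.{u}).xu r 1 * (tz F)⁻¹) * n⁻¹ = tz F * (n * (cG.{u}).xu r 1 * n⁻¹) * (tz F)⁻¹ := by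
      rw [show tz F * (n * (cG.{u}).xu r 1 * n⁻¹) * (tz F)⁻¹ = (tz F * n) * (cG.{u}).xu r 1 * (tz F * n)⁻¹ by group, hc]
      group
    rw [tz_conj_xu hr, ec, ec, tz_conj_xu ((cG.{u}).act_lt hlt hr)] at h1
    have h3 := xu_left_inj cG.{u} ((cG.{u}).act_lt hlt hr) h1
    rw [mul_one, mul_one, mul_comm] at h3
    exact (mul_right_cancel₀ hc0 h3).symm
  have cf : ∀ j < 2, (cG.{u}).coef (act chevG2 L' 11) j =
      3 * (cG.{u}).coef (act chevG2 L' 7) j + 2 * (cG.{u}).coef (act chevG2 L' 6) j := by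
    intro j hj
    have := (cG.{u}).act_coef hlt (lt_of 11) j hj
    rw [show chevG2.rank = 2 from rfl, Finset.sum_range_succ, Finset.sum_range_one, simple0, simple1] at this
    rw [this, show (cG.{u}).coef 11 0 = 3 by decide +kernel, show (cG.{u}).coef 11 1 = 2 by decide +kernel]
  obtain ⟨K, hK, h7, h6⟩ := weyl_table.{u} _ ((cG.{u}).act_lt hlt (lt_of 7)) _ ((cG.{u}).act_lt hlt (lt_of 6))
    _ ((cG.{u}).act_lt hlt (lt_of 11))
    ((par 7 (lt_of 7)).mpr (by decide +kernel))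
    (fun he => absurd ((par 6 (lt_of 6)).mp he) (by decide +kernel))
    ((par 11 (lt_of 11)).mpr (by decide +kernel)) cf
  have hKlt := klein_lt K hK
  have hKL : (cG.{u}).nWordElt F (K ++ L') ∈ chevG2.diagonalSubgroup F := by
    obtain ⟨K', hK'⟩ : ∃ K' : List (Fin chevG2.rank), K'.map Fin.val = K :=
      ⟨K.pmap (fun i hi => (⟨i, hi⟩ : Fin chevG2.rank)) hKlt, by simp [List.map_pmap]⟩
    rw [← hK', hL', ← List.map_append]
    refine (cG.{u}).nWordElt_mem_diagonal coxG2 fun r hr => ?_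
    rw [List.map_append, hK', ← hL']
    have hlt2 : ∀ i ∈ K ++ L', i < chevG2.rank := by
      intro i hi
      rcases List.mem_append.mp hi with hi | hi
      exacts [hKlt i hi, hlt i hi]
    refine ((cG.{u}).act_ext hlt2 (L' := []) (by simp) ?_ hr).trans (act_nil r)
    intro k hk
    rw [act_append, act_nil]
    match k, hk with
    | 0, _ => rw [simple0]; exact h7
    | 1, _ => rw [simple1]; exact h6
  have e2 : n = ((cG.{u}).nWordElt F K)⁻¹ * ((cG.{u}).nWordElt F (K ++ L') * h) := by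
    rw [e]; simp [Cert.nWordElt, mul_assoc]
  rw [e2]
  exact mul_mem (inv_mem (klein_mem K hK)) (Subgroup.mem_sup_right (mul_mem hKL hh))

/-- The centralizer of the involution in the group is `Y H`. -/
theorem centralizer_eq (h2 : (2 : F) ≠ 0) {g : GL chevG2.Idx F} (hg : g ∈ chevG2.group F)
    (hc : tz F * g = g * tz F) : g ∈ kSub F := by
  obtain ⟨n, hn, hcell⟩ := (cG.{u}).exists_bruhat coxG2 hg
  obtain ⟨b, hb, u, hu, rfl⟩ := (cG.{u}).exists_canonical coxG2 hn hcell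
  obtain ⟨a, ha, d, hd, rfl⟩ := (cG.{u}).mem_borel.mp hb
  set z := tz F with hz
  have hzd : z ∈ chevG2.diagonalSubgroup F := by
    rw [hz, tz_eq_hu]; exact (cG.{u}).hu_simple_mem_diagonal (lt_of 7) (neg_ne_zero.mpr one_ne_zero)
  set δ := z * (n * z⁻¹ * n⁻¹) with hδ
  have hδd : δ ∈ chevG2.diagonalSubgroup F := mul_mem hzd ((cG.{u}).monomial_conj_diagonal hn (inv_mem hzd))
  have hzu : z * u * z⁻¹ ∈ spanGroup chevG2 F (Inverts chevG2 F n) :=
    (Subgroup.mem_normalizer_iff.mp ((cG.{u}).diag_normalises _ (fun r hr => hr.1.1) hzd) u).mp hu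
  have hza : z * a * z⁻¹ ∈ chevG2.posUnipotent F :=
    (Subgroup.mem_normalizer_iff.mp ((cG.{u}).posUnipotent_normalised hzd) a).mp ha
  have e : a * d * n * u = (z * a * z⁻¹ * (d * δ)) * n * (z * u * z⁻¹) := by
    calc a * d * n * u = z * (a * d * n * u) * z⁻¹ := by rw [hc]; group
      _ = z * a * z⁻¹ * (z * d) * n * u * z⁻¹ := by group
      _ = z * a * z⁻¹ * (d * z) * n * u * z⁻¹ := by rw [show z * d = d * z from tz_comm_diagonal hd]
      _ = _ := by rw [hδ]; group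
  obtain ⟨eb, eu⟩ := (cG.{u}).canonical_unique (mul_mem ((cG.{u}).pos_le_borel ha) ((cG.{u}).diagonal_le_borel hd))
    (mul_mem ((cG.{u}).pos_le_borel hza) ((cG.{u}).diagonal_le_borel (mul_mem hd hδd))) hu hzu e
  have hu' : u ∈ ySub F := pos_fixed_mem h2 ((cG.{u}).span_mono (fun r hr => hr.1) hu) eu.symm
  have h3 : (z * a * z⁻¹)⁻¹ * a ∈ (⊥ : Subgroup (GL chevG2.Idx F)) := by
    rw [← (cG.{u}).posUnipotent_inf_diagonal]
    refine Subgroup.mem_inf.mpr ⟨mul_mem (inv_mem hza) ha, ?_⟩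
    rw [show (z * a * z⁻¹)⁻¹ * a = (z * a * z⁻¹)⁻¹ * (a * d) * d⁻¹ by group, eb]
    rw [show (z * a * z⁻¹)⁻¹ * (z * a * z⁻¹ * (d * δ)) * d⁻¹ = d * δ * d⁻¹ by group]
    exact mul_mem (mul_mem hd hδd) (inv_mem hd)
  have ea : z * a * z⁻¹ = a := inv_mul_eq_one.mp (Subgroup.mem_bot.mp h3)
  have hδ1 : δ = 1 := by
    rw [ea] at eb
    exact mul_eq_left.mp (mul_left_cancel eb).symm
  have hn' : z * n = n * z := by
    have : z * n * z⁻¹ * n⁻¹ = 1 := by rw [← hδ1, hδ]; group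
    exact mul_inv_eq_iff_eq_mul.mp (mul_inv_eq_one.mp this)
  exact mul_mem (mul_mem (mul_mem (Subgroup.mem_sup_left (pos_fixed_mem h2 ha ea))
    (Subgroup.mem_sup_right hd)) (monomial_fixed_mem h2 hn hn')) (Subgroup.mem_sup_left hu')

/-- The product of two non-squares of a finite field is a square. -/
theorem isSquare_mul_of_not [Fintype F] {a c : F} (ha : ¬ IsSquare a) (hc : ¬ IsSquare c) :
    IsSquare (a * c) := by
  classical
  have h1 := quadraticChar_neg_one_iff_not_isSquare.mpr ha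
  have h2 := quadraticChar_neg_one_iff_not_isSquare.mpr hc
  have h3 : quadraticChar F (a * c) = 1 := by rw [map_mul, h1, h2]; norm_num
  have hne : a * c ≠ 0 := mul_ne_zero (fun e => ha (e ▸ IsSquare.zero)) (fun e => hc (e ▸ IsSquare.zero))
  exact (quadraticChar_one_iff_isSquare hne).mp h3

/-- `H` meets each coset of `Y` in `Y H`: two cosets. -/
theorem diagonal_mem_or [Fintype F] {c : F} (hc : c ≠ 0) (hns : ¬ IsSquare c) {d : GL chevG2.Idx F}
    (hd : d ∈ chevG2.diagonalSubgroup F) : d ∈ ySub F ∨ d * h0 c ∈ ySub F := by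
  obtain ⟨a, ha, rfl⟩ := (cG.{u}).mem_diagonal_iff.mp hd
  have e : (cG.{u}).torusElt a = (cG.{u}).hu 7 (a 0) * (cG.{u}).hu 6 (a 1) := by
    simp [Cert.torusElt, Cert.hu, show chevG2.rank = 2 from rfl, List.range_succ, (cG.{u}).wu_append, simple0, simple1]
  rw [e]
  have h0' : a 0 ≠ 0 := ha 0 (by decide)
  have h1' : a 1 ≠ 0 := ha 1 (by decide)
  by_cases hs : IsSquare (a 1)
  · obtain ⟨s, hs⟩ := hs
    have hs0 : s ≠ 0 := fun e => h1' (by rw [hs, e, mul_zero])
    left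
    rw [hs, ← sq]
    exact mul_mem (hu7_mem h0') (hu6_sq_mem hs0)
  · obtain ⟨s, hs⟩ : IsSquare (a 1 * c) := isSquare_mul_of_not hs hns
    have hs0 : s ≠ 0 := fun e => mul_ne_zero h1' hc (by rw [hs, e, mul_zero])
    right
    rw [h0, mul_assoc, (cG.{u}).hu_mul (lt_of 6) h1' hc, hs, ← sq]
    exact mul_mem (hu7_mem h0') (hu6_sq_mem hs0)

end Cfsg.Agent.Chev.G2Odd
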