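import Cfsg.Agent.Chev.G2Odd.InGroup
import Cfsg.Agent.S0111
import Cfsg.Agent.S1052

/-!
All involutions of `G₂(q)`, `q` odd, are conjugate.
-/

set_option autoImplicit false

universe u

namespace Cfsg.Agent.Chev.G2Odd

open Cfsg.Lie
open scoped Matrix MatrixGroups

variable {F : Type u} [Field F]

theorem sl2J_sl2J (g : Matrix.SpecialLinearGroup (Fin 2) F) : sl2J (sl2J g) = g := by
  apply sl2_ext <;> simp

/-- The element moving `t` to another involution of its centralizer. -/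
noncomputable def gw (F : Type u) [Field F] : ↥(chevG2.group F) :=
  ⟨(cG.{u}).nu 6 1, (cG.{u}).monomial_le_group (simple1 ▸ (cG.{u}).nu_mem_monomial (i := 1) (by decide))⟩

/-- The conjugate of `t` by `gw`. -/
noncomputable def eG (F : Type u) [Field F] : ↥(chevG2.group F) := gw F * tG F * (gw F)⁻¹

theorem coe_eG : (eG F : GL chevG2.Idx F) = (cG.{u}).hu 8 (-1) := by
  rw [eG, Subgroup.coe_mul, Subgroup.coe_mul, Subgroup.coe_inv, coe_tG, tz_eq_hu]
  show (cG.{u}).nu 6 1 * (cG.{u}).hu 7 (-1) * ((cG.{u}).nu 6 1)⁻¹ = _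
  rw [← simple1, (cG.{u}).nu_simple_conj_hu (i := 1) (by decide) (lt_of 7) (neg_ne_zero.mpr one_ne_zero),
    mul_inv_cancel_right]
  congr 1

theorem coe_eG_mem : (eG F : GL chevG2.Idx F) ∈ chevG2.diagonalSubgroup F := by
  rw [coe_eG]; exact (cG.{u}).hu_simple_mem_diagonal (lt_of 8) (neg_ne_zero.mpr one_ne_zero)

theorem eG_mem_cen : eG F ∈ cen F := by
  rw [mem_cen]; apply Subtype.ext
  rw [Subgroup.coe_mul, Subgroup.coe_mul, coe_tG]
  exact tz_comm_diagonal coe_eG_mem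

theorem gw_sq : gw F * gw F * tG F = tG F * (gw F * gw F) := by
  apply Subtype.ext
  simp only [Subgroup.coe_mul, coe_tG]
  refine (tz_comm_diagonal ?_).symm
  show (cG.{u}).nu 6 1 * (cG.{u}).nu 6 1 ∈ _
  exact (cG.{u}).nu_sq_mem (lt_of 6)

theorem gw_conj_eG : gw F * eG F * (gw F)⁻¹ = tG F := by
  rw [eG, show gw F * (gw F * tG F * (gw F)⁻¹) * (gw F)⁻¹ = gw F * gw F * tG F * (gw F * gw F)⁻¹ by group,
    gw_sq, mul_inv_cancel_right]

theorem eG_sq : eG F * eG F = 1 := by rw [eG, conj_mul, tG_sq, mul_one, mul_inv_cancel]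

theorem eG_ne_tG (h2 : (2 : F) ≠ 0) : eG F ≠ tG F := by
  intro e
  have h1 := congrArg Subtype.val e
  rw [coe_eG, coe_tG, tz_eq_hu] at h1
  have h8 := hu_conj (cG.{u}) (lt_of 8) (lt_of 7) (neg_ne_zero.mpr (one_ne_zero (α := F))) (1 : F)
  have h7 := hu_conj (cG.{u}) (lt_of 7) (lt_of 7) (neg_ne_zero.mpr (one_ne_zero (α := F))) (1 : F)
  rw [h1, h7] at h8
  have hp : ¬ (Even (pairInt chevG2 7 7) ↔ Even (pairInt chevG2 8 7)) := by decide +kernel
  exact hp (even_of_zpow_eq h2 (mul_right_cancel₀ one_ne_zero (xu_left_inj (cG.{u}) (lt_of 7) h8)))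

/-- The second involution acts on each `SL₂` as `diag(-1, 1)`. -/
theorem eG_conj_phi {r : ℕ} {φ : Matrix.SpecialLinearGroup (Fin 2) F →* GL chevG2.Idx F}
    (h : RootHom (cG.{u}) r φ) (h1 : ¬ Even (pairInt chevG2 8 r))
    (h2 : ¬ Even (pairInt chevG2 8 (chevG2.neg r))) (g : Matrix.SpecialLinearGroup (Fin 2) F) :
    (eG F : GL chevG2.Idx F) * φ (sl2J g) * ((eG F : GL chevG2.Idx F))⁻¹ = φ g := by
  refine h.ext (ψ := (MulAut.conj (eG F : GL chevG2.Idx F)).toMonoidHom.comp (φ.comp sl2J)) ?_ ?_ g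
  · intro t
    simp only [MonoidHom.comp_apply, MulEquiv.coe_toMonoidHom, MulAut.conj_apply, sl2J_U, h.U]
    rw [coe_eG, hu_conj (cG.{u}) (lt_of 8) h.lt (neg_ne_zero.mpr one_ne_zero),
      Odd.neg_one_zpow (Int.not_even_iff_odd.mp h1), neg_one_mul, _root_.neg_neg]
  · intro t
    simp only [MonoidHom.comp_apply, MulEquiv.coe_toMonoidHom, MulAut.conj_apply, sl2J_L, h.L]
    rw [coe_eG, hu_conj (cG.{u}) (lt_of 8) ((cG.{u}).neg_lt r h.lt) (neg_ne_zero.mpr one_ne_zero),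
      Odd.neg_one_zpow (Int.not_even_iff_odd.mp h2), neg_one_mul, _root_.neg_neg]

theorem eG_conj_PhiG (a b : Matrix.SpecialLinearGroup (Fin 2) F) :
    eG F * PhiG (sl2J a, sl2J b) * (eG F)⁻¹ = PhiG (a, b) := by
  apply Subtype.ext
  rw [Subgroup.coe_mul, Subgroup.coe_mul, Subgroup.coe_inv, coe_PhiG, coe_PhiG, Phi_apply, Phi_apply,
    ← conj_mul, eG_conj_phi hS (by decide +kernel) (by decide +kernel),
    eG_conj_phi hL (by decide +kernel) (by decide +kernel)]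

/-- `Φ(m, m') e Φ(m, m')⁻¹`. -/
theorem PhiG_conj_eG (a b : Matrix.SpecialLinearGroup (Fin 2) F) :
    PhiG (a, b) * eG F * (PhiG (a, b))⁻¹ = PhiG (a * sl2J a⁻¹, b * sl2J b⁻¹) * eG F := by
  have h := eG_conj_PhiG a⁻¹ b⁻¹
  rw [mul_inv_eq_iff_eq_mul] at h
  rw [show PhiG (a * sl2J a⁻¹, b * sl2J b⁻¹) = PhiG (a, b) * PhiG (sl2J a⁻¹, sl2J b⁻¹) from
      map_mul PhiG (a, b) (sl2J a⁻¹, sl2J b⁻¹),
    show (PhiG (a, b))⁻¹ = PhiG (a⁻¹, b⁻¹) from (map_inv PhiG (a, b)).symm, mul_assoc, mul_assoc]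
  congr 1
  -- move `e` to the left
  have h' := eG_conj_PhiG (sl2J a⁻¹) (sl2J b⁻¹)
  rw [sl2J_sl2J, sl2J_sl2J, mul_inv_eq_iff_eq_mul] at h'
  exact h'

/-- The noncentral involution of `Y`. -/
noncomputable def y0 (F : Type u) [Field F] : ↥(chevG2.group F) := PhiG (sl2W, sl2W)

theorem y0_sq : y0 F * y0 F = 1 := by
  rw [y0, ← map_mul, Prod.mk_mul_mk, sl2W_sq]
  exact Subtype.ext (Phi_eq_one.mpr (Or.inr ⟨rfl, rfl⟩))

theorem y0_ne_one (h2 : (2 : F) ≠ 0) : y0 F ≠ 1 := by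
  intro e
  rcases Phi_eq_one.mp (congrArg Subtype.val e) with ⟨h, -⟩ | ⟨h, -⟩
  · exact (sl2W_ne h2).1 h
  · exact (sl2W_ne h2).2 h

theorem y0_ne_tG (h2 : (2 : F) ≠ 0) : y0 F ≠ tG F := by
  intro e
  have e1 : y0 F * tG F = 1 := by rw [e, tG_sq]
  rw [y0, tG, ← map_mul, Prod.mk_mul_mk, mul_one] at e1
  rcases Phi_eq_one.mp (congrArg Subtype.val e1) with ⟨-, h⟩ | ⟨-, h⟩
  · exact (sl2W_ne h2).1 h
  · exact (sl2W_ne h2).2 h

variable [Fintype F]

/-- Every involution of `Y` other than `t` is conjugate to `y0`. -/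
theorem isConj_y0 (h2 : (2 : F) ≠ 0) {x : ↥(chevG2.group F)} (hx : x ∈ yG F) (hsq : x * x = 1) (h1 : x ≠ 1)
    (ht : x ≠ tG F) : IsConj x (y0 F) := by
  obtain ⟨⟨a, b⟩, rfl⟩ := exists_PhiG hx
  rw [← map_mul, Prod.mk_mul_mk] at hsq
  rcases Phi_eq_one.mp (congrArg Subtype.val hsq) with ⟨ha, hb⟩ | ⟨ha, hb⟩
  · exfalso
    rcases eq_one_or_Z_of_sq h2 ha with rfl | rfl <;> rcases eq_one_or_Z_of_sq h2 hb with rfl | rfl
    · exact h1 (map_one PhiG)
    · exact ht (Subtype.ext (by rw [coe_tG, coe_PhiG, Phi_right, tz_eq_L]))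
    · exact ht rfl
    · exact h1 (Subtype.ext (Phi_eq_one.mpr (Or.inr ⟨rfl, rfl⟩)))
  · obtain ⟨P, rfl⟩ := exists_conj_W h2 ha
    obtain ⟨Q, rfl⟩ := exists_conj_W h2 hb
    refine (isConj_iff.mpr ⟨PhiG (P, Q), ?_⟩).symm
    rw [y0, ← map_inv, ← map_mul, ← map_mul]
    rfl

/-- The two classes of involutions of `Y` fuse. -/
theorem isConj_y0_tG (h2 : (2 : F) ≠ 0) : IsConj (y0 F) (tG F) := by
  have het : IsConj (eG F) (tG F) := (isConj_iff.mpr ⟨gw F, rfl⟩).symm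
  have he1 : eG F ≠ 1 := fun e => tG_ne_one h2 (by
    have := gw_conj_eG (F := F); rw [e, mul_one, mul_inv_cancel] at this; exact this.symm)
  by_cases he : eG F ∈ yG F
  · exact (isConj_y0 h2 he eG_sq he1 (eG_ne_tG h2)).symm.trans het
  -- `y0 e` and `t y0 e` are conjugate to `e`
  have hc1 : IsConj (eG F) (y0 F * eG F) := by
    refine isConj_iff.mpr ⟨PhiG (sl2M h2, sl2M h2), ?_⟩
    rw [PhiG_conj_eG, sl2M_eq h2]
    congr 1
    rw [y0, show ((sl2Z * sl2W, sl2Z * sl2W) : Matrix.SpecialLinearGroup (Fin 2) F ×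
      Matrix.SpecialLinearGroup (Fin 2) F) = (sl2Z, sl2Z) * (sl2W, sl2W) from rfl, map_mul,
      show PhiG ((sl2Z : Matrix.SpecialLinearGroup (Fin 2) F), sl2Z) = 1 from
        Subtype.ext (Phi_eq_one.mpr (Or.inr ⟨rfl, rfl⟩)), one_mul]
  have hc2 : IsConj (eG F) (tG F * y0 F * eG F) := by
    refine isConj_iff.mpr ⟨PhiG (sl2M h2, sl2M' h2), ?_⟩
    rw [PhiG_conj_eG, sl2M_eq h2, sl2M'_eq h2]
    congr 1
    rw [y0, tG, ← map_mul, Prod.mk_mul_mk, one_mul]
  have hord : ∀ x, IsConj (eG F) x → x * x = 1 ∧ x ≠ 1 := by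
    intro x hx
    obtain ⟨c, rfl⟩ := isConj_iff.mp hx
    exact ⟨by rw [conj_mul, eG_sq, mul_one, mul_inv_cancel], fun e => he1 (by simpa using e)⟩
  have hy : y0 F * eG F = eG F * y0 F := by
    have h := (hord _ hc1).1
    calc y0 F * eG F = (y0 F * eG F)⁻¹ := (inv_eq_of_mul_eq_one_right h).symm
      _ = eG F * y0 F := by
        rw [mul_inv_rev, inv_eq_of_mul_eq_one_right eG_sq, inv_eq_of_mul_eq_one_right y0_sq]
  -- transport by `gw`
  set φ := MulAut.conj (gw F)⁻¹ with hφ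
  have hφt : ∀ x, φ x = (gw F)⁻¹ * x * gw F := fun x => by simp [hφ, MulAut.conj_apply]
  have hφe : φ (eG F) = tG F := by rw [hφt, eG]; group
  have hφtG : φ (tG F) = eG F := by rw [hφt, ← gw_conj_eG]; group
  have hφc : ∀ x, x * eG F = eG F * x → φ x ∈ cen F := by
    intro x hx
    rw [mem_cen, ← hφe, ← map_mul, ← map_mul, hx]
  -- the element of `Y'`
  obtain ⟨z, hz, hzc, hzy⟩ : ∃ z, (z = y0 F ∨ z = tG F * y0 F) ∧ IsConj (eG F) (z * eG F) ∧ φ z ∈ yG F := by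
    by_cases hy' : φ (y0 F) ∈ yG F
    · exact ⟨_, Or.inl rfl, hc1, hy'⟩
    · refine ⟨_, Or.inr rfl, hc2, ?_⟩
      rw [map_mul, hφtG, mul_mem_yG_iff h2 eG_mem_cen (hφc _ hy)]
      exact iff_of_false he hy'
  have hz1 : z ≠ 1 := by
    rcases hz with rfl | rfl
    · exact y0_ne_one h2
    · intro e
      exact y0_ne_tG h2 ((eq_inv_of_mul_eq_one_right e).trans (inv_eq_of_mul_eq_one_right tG_sq))
  have hmem : φ (z * eG F) ∈ yG F := by rw [map_mul, hφe]; exact mul_mem hzy tG_mem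
  obtain ⟨hw1, hw2⟩ := hord _ hzc
  have hne : φ (z * eG F) ≠ tG F := fun e => hz1 (mul_eq_right.mp (φ.injective (e.trans hφe.symm)))
  have hsq : φ (z * eG F) * φ (z * eG F) = 1 := by rw [← map_mul, hw1, map_one]
  have hne1 : φ (z * eG F) ≠ 1 := fun e => hw2 (φ.injective (e.trans (map_one φ).symm))
  refine (isConj_y0 h2 hmem hsq hne1 hne).symm.trans ?_
  exact ((isConj_iff.mpr ⟨(gw F)⁻¹, rfl⟩ : IsConj (z * eG F) (φ (z * eG F))).symm).trans (hzc.symm.trans het)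

/-- Every involution is conjugate to `t`. -/
theorem isConj_tG (hodd : Odd (Fintype.card F)) (h2 : (2 : F) ≠ 0) {s : ↥(chevG2.group F)}
    (hs : orderOf s = 2) : IsConj s (tG F) := by
  haveI : Fact (Nat.Prime 2) := ⟨Nat.prime_two⟩
  -- every involution of `Y` is conjugate to `t`
  have inY : ∀ x ∈ yG F, orderOf x = 2 → IsConj x (tG F) := by
    intro x hx hox
    have hsq : x * x = 1 := by rw [← sq, ← hox, pow_orderOf_eq_one]
    have h1 : x ≠ 1 := fun e => by rw [e, orderOf_one] at hox; norm_num at hox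
    by_cases ht : x = tG F
    · exact ht ▸ IsConj.refl _
    · exact (isConj_y0 h2 hx hsq h1 ht).trans (isConj_y0_tG h2)
  -- a Sylow subgroup inside the centralizer
  obtain ⟨P0⟩ : Nonempty (Sylow 2 ↥(cen F)) := inferInstance
  let P : Sylow 2 ↥(chevG2.group F) := (P0.2.map (cen F).subtype).toSylow (by
    rw [Subgroup.index_map_subtype, Nat.two_dvd_ne_zero, ← Nat.odd_iff]
    exact (Nat.odd_iff.mpr (Nat.two_dvd_ne_zero.mp P0.not_dvd_index)).mul (odd_index_cen h2 hodd))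
  have hPle : (P : Subgroup ↥(chevG2.group F)) ≤ cen F := Subgroup.map_subtype_le _
  -- the involution moves into the Sylow subgroup
  have hzp : IsPGroup 2 (Subgroup.zpowers s) := IsPGroup.of_card (n := 1) (by rw [Nat.card_zpowers, hs, pow_one])
  obtain ⟨R, hR⟩ := hzp.exists_le_sylow
  obtain ⟨g, hg⟩ := MulAction.exists_smul_eq ↥(chevG2.group F) R P
  set u := g * s * g⁻¹ with hu
  have huP : u ∈ (P : Subgroup ↥(chevG2.group F)) := by
    rw [← hg]
    exact Subgroup.smul_mem_pointwise_smul _ (MulAut.conj g) _ (hR (Subgroup.mem_zpowers s))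
  have hsu : IsConj s u := isConj_iff.mpr ⟨g, rfl⟩
  have hou : orderOf u = 2 := by
    rw [hu, ← hs]
    exact orderOf_injective (MulAut.conj g).toMonoidHom (MulAut.conj g).injective s
  by_cases huY : u ∈ yG F
  · exact hsu.trans (inY u huY hou)
  set Q := (P : Subgroup ↥(chevG2.group F)) ⊓ yG F with hQ
  have hQi : Q.relIndex (P : Subgroup ↥(chevG2.group F)) = 2 := by
    rw [hQ, Subgroup.inf_relIndex_left]
    unfold Subgroup.relIndex
    rw [Subgroup.index_eq_two_iff]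
    refine ⟨⟨u, huP⟩, fun b => ?_⟩
    simp only [Subgroup.mem_subgroupOf, Subgroup.coe_mul]
    rw [mul_mem_yG_iff h2 (hPle b.2) (hPle huP)]
    by_cases hb : (b : ↥(chevG2.group F)) ∈ yG F <;> simp [hb, huY]
  rcases S0111.result P Q inf_le_left hQi u hou huP (fun h => huY h.2) with ⟨M, hMn, hMi, -⟩ | ⟨c, hc⟩
  · exfalso
    have hperf : commutator ↥(chevG2.group F) = ⊤ := S1052.result chevG2 (by simp) (fun _ =>
      ⟨-1, neg_ne_zero.mpr one_ne_zero, fun e => h2 (by linear_combination -e)⟩)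
    have hMtop : commutator ↥(chevG2.group F) ≤ M := by
      rw [commutator_eq_closure, Subgroup.closure_le]
      rintro x ⟨a, b, rfl⟩
      have hab := (Subgroup.mul_mem_iff_of_index_two hMi (a := a) (b := b))
      have hba := (Subgroup.mul_mem_iff_of_index_two hMi (a := b) (b := a))
      show a * b * a⁻¹ * b⁻¹ ∈ M
      rw [show a * b * a⁻¹ * b⁻¹ = (a * b) * (b * a)⁻¹ by group,
        Subgroup.mul_mem_iff_of_index_two hMi, Subgroup.inv_mem_iff, hab, hba]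
      exact iff_comm
    rw [hperf, top_le_iff] at hMtop
    rw [hMtop, Subgroup.index_top] at hMi
    norm_num at hMi
  · refine hsu.trans ((isConj_iff.mpr ⟨c, rfl⟩).trans (inY _ hc.2 ?_))
    rw [← hou]
    exact orderOf_injective (MulAut.conj c).toMonoidHom (MulAut.conj c).injective u

end Cfsg.Agent.Chev.G2Odd
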