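import Cfsg.Agent.Chev.G2Odd.Centralizer
import Cfsg.Agent.Chev.OrdersByType

/-!
The involution, its centralizer and the two `SL₂` inside the group `G₂(q)`.
-/

set_option autoImplicit false

universe u

namespace Cfsg.Agent.Chev.G2Odd

open Cfsg.Lie
open scoped Matrix MatrixGroups

variable {F : Type u} [Field F]

/-- The product map into the group. -/
noncomputable def PhiG :
    Matrix.SpecialLinearGroup (Fin 2) F × Matrix.SpecialLinearGroup (Fin 2) F →* ↥(chevG2.group F) :=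
  (Phi (F := F)).codRestrict _ fun x => ySub_le_group ⟨x, rfl⟩

theorem coe_PhiG (x : Matrix.SpecialLinearGroup (Fin 2) F × Matrix.SpecialLinearGroup (Fin 2) F) :
    (PhiG x : GL chevG2.Idx F) = Phi x := rfl

/-- `Y` in the group. -/
noncomputable def yG (F : Type u) [Field F] : Subgroup ↥(chevG2.group F) := (ySub F).subgroupOf _

theorem mem_yG {g : ↥(chevG2.group F)} : g ∈ yG F ↔ (g : GL chevG2.Idx F) ∈ ySub F := Iff.rfl

theorem PhiG_mem (x : Matrix.SpecialLinearGroup (Fin 2) F × Matrix.SpecialLinearGroup (Fin 2) F) :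
    PhiG x ∈ yG F := ⟨x, rfl⟩

theorem exists_PhiG {g : ↥(chevG2.group F)} (hg : g ∈ yG F) : ∃ x, PhiG x = g := by
  obtain ⟨x, hx⟩ := hg; exact ⟨x, Subtype.ext hx⟩

theorem yG_eq_range : yG F = (PhiG (F := F)).range := by
  ext g
  exact ⟨exists_PhiG, fun ⟨x, hx⟩ => hx ▸ PhiG_mem x⟩

/-- The involution in the group. -/
noncomputable def tG (F : Type u) [Field F] : ↥(chevG2.group F) := PhiG (sl2Z, 1)

theorem coe_tG : (tG F : GL chevG2.Idx F) = tz F := by rw [tG, coe_PhiG, Phi_left]; rfl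

theorem tG_mem : tG F ∈ yG F := PhiG_mem _

theorem tG_sq : tG F * tG F = 1 := by
  rw [tG, ← map_mul, Prod.mk_mul_mk, sl2Z_sq, one_mul]; exact map_one _

theorem tG_ne_one (h2 : (2 : F) ≠ 0) : tG F ≠ 1 := fun e =>
  tz_ne_one h2 (by rw [← coe_tG, e, OneMemClass.coe_one])

theorem orderOf_tG (h2 : (2 : F) ≠ 0) : orderOf (tG F) = 2 :=
  orderOf_eq_prime (by rw [sq, tG_sq]) (tG_ne_one h2)

/-- The centralizer of the involution. -/
noncomputable abbrev cen (F : Type u) [Field F] : Subgroup ↥(chevG2.group F) :=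
  Subgroup.centralizer ({tG F} : Set ↥(chevG2.group F))

theorem mem_cen {g : ↥(chevG2.group F)} : g ∈ cen F ↔ tG F * g = g * tG F :=
  Subgroup.mem_centralizer_singleton_iff.trans eq_comm

theorem mem_cen_iff (h2 : (2 : F) ≠ 0) {g : ↥(chevG2.group F)} :
    g ∈ cen F ↔ (g : GL chevG2.Idx F) ∈ kSub F := by
  rw [mem_cen, Subtype.ext_iff, Subgroup.coe_mul, Subgroup.coe_mul, coe_tG]
  exact ⟨centralizer_eq h2 g.2, kSub_comm⟩

theorem yG_le_cen (h2 : (2 : F) ≠ 0) : yG F ≤ cen F := fun _ hg =>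
  (mem_cen_iff h2).mpr (Subgroup.mem_sup_left hg)

variable [Fintype F]

theorem index_yG (h2 : (2 : F) ≠ 0) : ((yG F).subgroupOf (cen F)).index = 2 := by
  obtain ⟨c, hns⟩ := FiniteField.exists_nonsquare (F := F) (fun e => h2 (by
    have := ringChar.Nat.cast_ringChar (R := F)
    rw [e] at this
    exact_mod_cast this))
  have hc : c ≠ 0 := fun e => hns (e ▸ IsSquare.zero)
  have hk : h0 c ∈ kSub F := Subgroup.mem_sup_right ((cG.{u}).hu_simple_mem_diagonal (lt_of 6) hc)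
  rw [Subgroup.index_eq_two_iff]
  refine ⟨⟨⟨h0 c, kSub_le_group hk⟩, (mem_cen_iff h2).mpr hk⟩, fun b => ?_⟩
  simp only [Subgroup.mem_subgroupOf, mem_yG, Subgroup.coe_mul]
  obtain ⟨y, hy, d, hd, e⟩ :=
    (Cert.mem_sup_of_normalised diagonal_normalises).mp ((mem_cen_iff h2).mp b.2)
  rw [← e]
  rcases diagonal_mem_or hc hns hd with h | h
  · refine Or.inr ⟨mul_mem hy h, fun h' => h0_not_mem hc hns ?_⟩
    have := mul_mem (inv_mem (mul_mem hy h)) h'
    rwa [inv_mul_cancel_left] at this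
  · refine Or.inl ⟨by rw [mul_assoc]; exact mul_mem hy h, fun h' => h0_not_mem hc hns ?_⟩
    have := mul_mem (inv_mem h') (mul_mem hy h)
    rwa [show (y * d)⁻¹ * (y * (d * h0 c)) = h0 c by group] at this

theorem mul_mem_yG_iff (h2 : (2 : F) ≠ 0) {a b : ↥(chevG2.group F)} (ha : a ∈ cen F) (hb : b ∈ cen F) :
    a * b ∈ yG F ↔ (a ∈ yG F ↔ b ∈ yG F) :=
  Subgroup.mul_mem_iff_of_index_two (index_yG h2) (a := ⟨a, ha⟩) (b := ⟨b, hb⟩)

theorem card_cen (h2 : (2 : F) ≠ 0) :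
    Nat.card (cen F) = Fintype.card F ^ 2 * (Fintype.card F ^ 2 - 1) ^ 2 := by
  have h := ((yG F).subgroupOf (cen F)).card_mul_index
  rw [index_yG h2, Nat.card_congr (Subgroup.subgroupOfEquivOfLe (yG_le_cen h2)).toEquiv, yG,
    Nat.card_congr (Subgroup.subgroupOfEquivOfLe ySub_le_group).toEquiv, mul_comm,
    two_mul_card_ySub h2, mul_pow] at h
  exact h.symm

theorem odd_index_cen (h2 : (2 : F) ≠ 0) (hodd : Odd (Fintype.card F)) : Odd (cen F).index := by
  have h := (cen F).card_mul_index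
  rw [card_cen h2, orderG2 rfl] at h
  obtain ⟨m, hm⟩ : ∃ m, Fintype.card F ^ 2 = m + 1 :=
    ⟨Fintype.card F ^ 2 - 1, (Nat.sub_add_cancel (Nat.one_le_pow _ _ Fintype.card_pos)).symm⟩
  have hm0 : 0 < m := by
    by_contra hne
    have h1 : Fintype.card F ^ 2 = 1 := by omega
    have := Fintype.one_lt_card (α := F)
    nlinarith
  have h6 : Fintype.card F ^ 6 - 1 = m * ((m + 1) ^ 2 + (m + 1) + 1) := by
    apply Nat.sub_eq_of_eq_add
    rw [show Fintype.card F ^ 6 = (Fintype.card F ^ 2) ^ 3 by ring, hm]; ring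
  have e : (cen F).index = (m + 1) ^ 2 * ((m + 1) ^ 2 + (m + 1) + 1) := by
    apply Nat.eq_of_mul_eq_mul_left (show 0 < (m + 1) * m ^ 2 by positivity)
    rw [hm, show m + 1 - 1 = m by omega, h6, show Fintype.card F ^ 6 = (Fintype.card F ^ 2) ^ 3 by ring, hm] at h
    rw [h]; ring
  have hm1 : Odd (m + 1) := hm ▸ hodd.pow
  rw [e]
  exact hm1.pow.mul ((hm1.pow.add_odd hm1).add_one)

end Cfsg.Agent.Chev.G2Odd
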